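import Mathlib

set_option autoImplicit false

namespace Cfsg.Agent.Lib.Helper46.SylMeet
open scoped Pointwise

theorem card_sylow_of_index_two {G : Type*} [Group G] [Finite G] (N : Subgroup G) [N.Normal]
    (hidx : N.index = 2) (H : Sylow 2 G) :
    Nat.card H = 2 * 2 ^ (Nat.card N).factorization 2 ∧
      Nat.card ((H : Subgroup G) ⊓ N : Subgroup G) = 2 ^ (Nat.card N).factorization 2 := by
  have : Fact (Nat.Prime 2) := ⟨Nat.prime_two⟩
  have hG : Nat.card G = Nat.card N * 2 := by rw [← hidx, Subgroup.card_mul_index]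
  have hN0 : Nat.card N ≠ 0 := Nat.card_pos.ne'
  have hH : Nat.card H = 2 * 2 ^ (Nat.card N).factorization 2 := by
    rw [Sylow.card_eq_multiplicity, hG, Nat.factorization_mul hN0 (by norm_num)]
    simp [Nat.Prime.factorization_self Nat.prime_two, pow_succ, mul_comm]
  refine ⟨hH, ?_⟩
  set a := (Nat.card N).factorization 2 with ha
  -- the order of H ⊓ N is a power of 2
  have hp : IsPGroup 2 ((H : Subgroup G) ⊓ N : Subgroup G) := H.2.to_le inf_le_left
  obtain ⟨k, hk⟩ := IsPGroup.iff_card.1 hp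
  have hdvd : Nat.card ((H : Subgroup G) ⊓ N : Subgroup G) ∣ Nat.card N :=
    Subgroup.card_dvd_of_le inf_le_right
  have hka : k ≤ a := by
    rw [hk] at hdvd
    exact (Nat.Prime.pow_dvd_iff_le_factorization Nat.prime_two hN0).1 hdvd
  have hrel : N.relIndex (H : Subgroup G) ∣ N.index :=
    Subgroup.relIndex_dvd_index_of_normal N _
  have hmul : N.relIndex (H : Subgroup G) * Nat.card ((H : Subgroup G) ⊓ N : Subgroup G)
      = Nat.card (H : Subgroup G) := by
    rw [← Subgroup.inf_relIndex_left, Subgroup.relIndex,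
      ← Nat.card_congr (Subgroup.subgroupOfEquivOfLe
        (inf_le_left : (H : Subgroup G) ⊓ N ≤ (H : Subgroup G))).toEquiv]
    exact Subgroup.index_mul_card _
  have hle : N.relIndex (H : Subgroup G) ≤ 2 := by
    have := Nat.le_of_dvd (by rw [hidx]; norm_num) hrel
    omega
  have hH' : Nat.card (H : Subgroup G) = 2 * 2 ^ a := hH
  rw [hk]
  rw [hk, hH'] at hmul
  have h1 : 2 * 2 ^ a ≤ 2 * 2 ^ k := by
    rw [← hmul]; exact Nat.mul_le_mul_right _ hle
  have h2 : 2 ^ a ≤ 2 ^ k := by omega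
  have h3 : a ≤ k := (Nat.pow_le_pow_iff_right (by norm_num)).1 h2
  rw [le_antisymm hka h3]

end Cfsg.Agent.Lib.Helper46.SylMeet
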