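import Mathlib

set_option autoImplicit false

namespace Cfsg.Agent.Lib.Helper46.SylMeet
open scoped Pointwise

theorem conj_of_card_eq {G : Type*} [Group G] [Finite G] (N U V : Subgroup G) (hU : U ≤ N) (hV : V ≤ N)
    (cU : Nat.card U = 2 ^ (Nat.card N).factorization 2)
    (cV : Nat.card V = 2 ^ (Nat.card N).factorization 2) :
    ∃ g ∈ N, V = MulAut.conj g • U := by
  have : Fact (Nat.Prime 2) := ⟨Nat.prime_two⟩
  have cU' : Nat.card (U.subgroupOf N) = 2 ^ (Nat.card N).factorization 2 := by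
    rw [Nat.card_congr (Subgroup.subgroupOfEquivOfLe hU).toEquiv, cU]
  have cV' : Nat.card (V.subgroupOf N) = 2 ^ (Nat.card N).factorization 2 := by
    rw [Nat.card_congr (Subgroup.subgroupOfEquivOfLe hV).toEquiv, cV]
  obtain ⟨g, hg⟩ := MulAction.exists_smul_eq N (Sylow.ofCard (U.subgroupOf N) cU')
    (Sylow.ofCard (V.subgroupOf N) cV')
  have hg' : MulAut.conj g • (U.subgroupOf N) = V.subgroupOf N := by
    have := congrArg (fun P : Sylow 2 N => (P : Subgroup N)) hg
    simpa [Sylow.coe_subgroup_smul] using this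
  refine ⟨g, g.2, ?_⟩
  ext y
  rw [Subgroup.mem_pointwise_smul_iff_inv_smul_mem]
  constructor
  · intro hy
    have h1 : (⟨y, hV hy⟩ : N) ∈ V.subgroupOf N := by
      rw [Subgroup.mem_subgroupOf]; exact hy
    rw [← hg', Subgroup.mem_pointwise_smul_iff_inv_smul_mem, Subgroup.mem_subgroupOf] at h1
    simpa [MulAut.smul_def, MulAut.conj_apply] using h1
  · intro hy
    have hyN : y ∈ N := by
      have h2 := hU hy
      simp only [MulAut.smul_def, ← map_inv, MulAut.conj_apply, inv_inv] at h2
      have h3 := N.mul_mem (N.mul_mem g.2 h2) (N.inv_mem g.2)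
      simpa [mul_assoc] using h3
    have h1 : (⟨y, hyN⟩ : N) ∈ V.subgroupOf N := by
      rw [← hg', Subgroup.mem_pointwise_smul_iff_inv_smul_mem, Subgroup.mem_subgroupOf]
      simpa [MulAut.smul_def, MulAut.conj_apply] using hy
    exact h1

end Cfsg.Agent.Lib.Helper46.SylMeet
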