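import Mathlib
import Cfsg.Agent.Lib.Helper46.SylMeet.A1
import Cfsg.Agent.Lib.Helper46.SylMeet.A2

set_option autoImplicit false

namespace Cfsg.Agent.Lib.Helper46.SylMeet
open scoped Pointwise

theorem a3_mem_conj {G : Type*} [Group G] (K : Subgroup G) (g y : G) :
    y ∈ MulAut.conj g • K ↔ g⁻¹ * y * g ∈ K := by
  rw [Subgroup.mem_pointwise_smul_iff_inv_smul_mem]
  simp [MulAut.smul_def]

theorem meet_of_opp_normalised {G : Type*} [Group G] [Finite G] (N : Subgroup G) [N.Normal]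
    (hidx : N.index = 2) (U : Subgroup G)
    (hnorm : ∀ g ∈ N, (∀ u ∈ U, g * u * g⁻¹ ∈ U) → g ∈ U) (w : G)
    (hopp : ∀ g ∈ N, U ⊓ MulAut.conj g • U = ⊥ → ∃ u ∈ U, ∃ u' ∈ U, g = u * w * u')
    (H : Sylow 2 G) (hHU : (H : Subgroup G) ⊓ N = U) (x : G) :
    (H : Subgroup G) ⊓ MulAut.conj x • (H : Subgroup G) ≠ ⊥ := by
  intro hbot
  obtain ⟨cH, cU⟩ := card_sylow_of_index_two N hidx H
  rw [hHU] at cU
  have hUH : U ≤ (H : Subgroup G) := hHU ▸ inf_le_left
  have hUN : U ≤ N := hHU ▸ inf_le_right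
  -- (a) the normaliser of U is H
  have hHnorm : ∀ h ∈ (H : Subgroup G), ∀ u, u ∈ U ↔ h * u * h⁻¹ ∈ U := by
    intro h hh u
    rw [← hHU, Subgroup.mem_inf, Subgroup.mem_inf]
    constructor
    · rintro ⟨h1, h2⟩
      exact ⟨mul_mem (mul_mem hh h1) (inv_mem hh), ‹N.Normal›.conj_mem u h2 h⟩
    · rintro ⟨h1, h2⟩
      refine ⟨?_, ?_⟩
      · have := mul_mem (mul_mem (inv_mem hh) h1) hh
        simpa [mul_assoc] using this
      · have := ‹N.Normal›.conj_mem _ h2 h⁻¹
        simpa [mul_assoc] using this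
  have hHM : (H : Subgroup G) ≤ (Subgroup.normalizer (U : Set G)) := by
    intro h hh
    rw [Subgroup.mem_normalizer_iff]
    exact hHnorm h hh
  have hMN : (Subgroup.normalizer (U : Set G)) ⊓ N = U := by
    apply le_antisymm
    · intro g hg
      obtain ⟨h1, h2⟩ := Subgroup.mem_inf.1 hg
      exact hnorm g h2 (fun u hu => (Subgroup.mem_normalizer_iff.1 h1 u).1 hu)
    · exact le_inf Subgroup.le_normalizer hUN
  have hMcard : Nat.card (Subgroup.normalizer (U : Set G)) ≤ Nat.card (H : Subgroup G) := by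
    have hmul : N.relIndex (Subgroup.normalizer (U : Set G)) * Nat.card ((Subgroup.normalizer (U : Set G)) ⊓ N : Subgroup G)
        = Nat.card (Subgroup.normalizer (U : Set G)) := by
      rw [← Subgroup.inf_relIndex_left, Subgroup.relIndex,
        ← Nat.card_congr (Subgroup.subgroupOfEquivOfLe
          (inf_le_left : (Subgroup.normalizer (U : Set G)) ⊓ N ≤ (Subgroup.normalizer (U : Set G)))).toEquiv]
      exact Subgroup.index_mul_card _
    have hrel : N.relIndex (Subgroup.normalizer (U : Set G)) ∣ N.index :=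
      Subgroup.relIndex_dvd_index_of_normal N _
    have hle : N.relIndex (Subgroup.normalizer (U : Set G)) ≤ 2 := by
      have := Nat.le_of_dvd (by rw [hidx]; norm_num) hrel
      omega
    rw [← hmul, hMN, cU]
    have cH' : Nat.card (H : Subgroup G) = 2 * 2 ^ (Nat.card N).factorization 2 := cH
    rw [cH']
    exact Nat.mul_le_mul_right _ hle
  have hM : (Subgroup.normalizer (U : Set G)) = (H : Subgroup G) :=
    (Subgroup.eq_of_le_of_card_ge hHM hMcard).symm
  -- (b)-(e) every H-conjugate of `conj x • U` is `conj (u * w) • U`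
  have key : ∀ h : (H : Subgroup G), ∃ u : U,
      MulAut.conj ((h : G) * x) • U = MulAut.conj ((u : G) * w) • U := by
    intro h
    have hle : MulAut.conj ((h : G) * x) • U ≤ N := by
      intro y hy
      rw [a3_mem_conj] at hy
      have := ‹N.Normal›.conj_mem _ (hUN hy) ((h : G) * x)
      simpa [mul_assoc] using this
    have hc : Nat.card (MulAut.conj ((h : G) * x) • U : Subgroup G)
        = 2 ^ (Nat.card N).factorization 2 := by
      rw [← cU]
      exact Subgroup.card_map_of_injective (MulAut.conj ((h : G) * x)).injective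
    obtain ⟨g, hgN, hg⟩ := conj_of_card_eq N U _ hUN hle cU hc
    have htriv : U ⊓ MulAut.conj g • U = ⊥ := by
      rw [← hg, eq_bot_iff]
      intro y hy
      obtain ⟨h1, h2⟩ := Subgroup.mem_inf.1 hy
      rw [a3_mem_conj] at h2
      have h3 : (h : G)⁻¹ * y * h ∈ (H : Subgroup G) ⊓ MulAut.conj x • (H : Subgroup G) := by
        refine Subgroup.mem_inf.2 ⟨mul_mem (mul_mem (inv_mem h.2) (hUH h1)) h.2, ?_⟩
        rw [a3_mem_conj]
        have := hUH h2
        simpa [mul_assoc] using this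
      rw [hbot, Subgroup.mem_bot] at h3
      rw [Subgroup.mem_bot]
      have : y = (h : G) * ((h : G)⁻¹ * y * h) * (h : G)⁻¹ := by group
      rw [this, h3]; group
    obtain ⟨u, hu, u', hu', rfl⟩ := hopp g hgN htriv
    refine ⟨⟨u, hu⟩, ?_⟩
    rw [hg]
    ext y
    rw [a3_mem_conj, a3_mem_conj]
    have e : (u * w * u')⁻¹ * y * (u * w * u') = u'⁻¹ * ((u * w)⁻¹ * y * (u * w)) * u' := by group
    rw [e]
    constructor
    · intro h1
      have := mul_mem (mul_mem hu' h1) (inv_mem hu')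
      simpa [mul_assoc] using this
    · intro h1
      exact mul_mem (mul_mem (inv_mem hu') h1) hu'
  choose f hf using key
  have hninj : ¬ Function.Injective f := by
    intro hinj
    have h1 := Nat.card_le_card_of_injective f hinj
    have cH' : Nat.card (H : Subgroup G) = 2 * 2 ^ (Nat.card N).factorization 2 := cH
    rw [cH', cU] at h1
    have : 0 < 2 ^ (Nat.card N).factorization 2 := by positivity
    omega
  rw [Function.Injective] at hninj
  push Not at hninj
  obtain ⟨h₁, h₂, heq, hne⟩ := hninj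
  have h3 : MulAut.conj ((h₁ : G) * x) • U = MulAut.conj ((h₂ : G) * x) • U := by
    rw [hf h₁, hf h₂, heq]
  have h4 : x⁻¹ * ((h₂ : G)⁻¹ * h₁) * x ∈ (Subgroup.normalizer (U : Set G)) := by
    rw [Subgroup.mem_normalizer_iff]
    intro u
    have h5 : ∀ y, ((h₁ : G) * x)⁻¹ * y * ((h₁ : G) * x) ∈ U ↔
        ((h₂ : G) * x)⁻¹ * y * ((h₂ : G) * x) ∈ U := by
      intro y
      rw [← a3_mem_conj, ← a3_mem_conj, h3]
    have h6 := h5 ((h₁ : G) * x * u * ((h₁ : G) * x)⁻¹)
    have e1 : ((h₁ : G) * x)⁻¹ * ((h₁ : G) * x * u * ((h₁ : G) * x)⁻¹) * ((h₁ : G) * x) = u := by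
      group
    have e2 : ((h₂ : G) * x)⁻¹ * ((h₁ : G) * x * u * ((h₁ : G) * x)⁻¹) * ((h₂ : G) * x)
        = x⁻¹ * ((h₂ : G)⁻¹ * h₁) * x * u * (x⁻¹ * ((h₂ : G)⁻¹ * h₁) * x)⁻¹ := by
      group
    rw [e1, e2] at h6
    exact h6
  rw [hM] at h4
  have h7 : (h₂ : G)⁻¹ * h₁ ∈ (H : Subgroup G) ⊓ MulAut.conj x • (H : Subgroup G) := by
    refine Subgroup.mem_inf.2 ⟨mul_mem (inv_mem h₂.2) h₁.2, ?_⟩
    rw [a3_mem_conj]
    exact h4
  rw [hbot, Subgroup.mem_bot] at h7
  apply hne
  apply Subtype.ext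
  have : (h₁ : G) = h₂ * ((h₂ : G)⁻¹ * h₁) := by group
  rw [this, h7, mul_one]

end Cfsg.Agent.Lib.Helper46.SylMeet
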