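import Mathlib
import Cfsg.Agent.Lib.Helper46.SylMeet.A3

set_option autoImplicit false

namespace Cfsg.Agent.Lib.Helper46.SylMeet
open scoped Pointwise

theorem meet_of_opp {G : Type*} [Group G] [Finite G] (N : Subgroup G) [N.Normal]
    (hidx : N.index = 2) (U : Subgroup G) (hUN : U ≤ N)
    (cU : Nat.card U = 2 ^ (Nat.card N).factorization 2)
    (hnorm : ∀ g ∈ N, (∀ u ∈ U, g * u * g⁻¹ ∈ U) → g ∈ U) (w : G)
    (hopp : ∀ g ∈ N, U ⊓ MulAut.conj g • U = ⊥ → ∃ u ∈ U, ∃ u' ∈ U, g = u * w * u')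
    (H : Sylow 2 G) (x : G) :
    (H : Subgroup G) ⊓ MulAut.conj x • (H : Subgroup G) ≠ ⊥ := by
  obtain ⟨-, cHN⟩ := card_sylow_of_index_two N hidx H
  obtain ⟨g, hgN, hg⟩ := conj_of_card_eq N ((H : Subgroup G) ⊓ N) U inf_le_right hUN cHN cU
  have hH' : ((g • H : Sylow 2 G) : Subgroup G) = MulAut.conj g • (H : Subgroup G) :=
    Sylow.coe_subgroup_smul
  have h1 : ((g • H : Sylow 2 G) : Subgroup G) ⊓ N = U := by
    rw [hg, hH']
    ext y
    rw [Subgroup.mem_inf, a3_mem_conj, a3_mem_conj, Subgroup.mem_inf]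
    constructor
    · rintro ⟨h2, h3⟩
      exact ⟨h2, mul_mem (mul_mem (inv_mem hgN) h3) hgN⟩
    · rintro ⟨h2, h3⟩
      refine ⟨h2, ?_⟩
      have := mul_mem (mul_mem hgN h3) (inv_mem hgN)
      simpa [mul_assoc] using this
  have h2 := meet_of_opp_normalised N hidx U hnorm w hopp (g • H) h1 (g * x * g⁻¹)
  intro hbot
  apply h2
  rw [hH', eq_bot_iff]
  intro y hy
  obtain ⟨h3, h4⟩ := Subgroup.mem_inf.1 hy
  rw [a3_mem_conj] at h3
  rw [a3_mem_conj, a3_mem_conj] at h4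
  have h5 : g⁻¹ * y * g ∈ (H : Subgroup G) ⊓ MulAut.conj x • (H : Subgroup G) := by
    refine Subgroup.mem_inf.2 ⟨h3, ?_⟩
    rw [a3_mem_conj]
    have e : g⁻¹ * ((g * x * g⁻¹)⁻¹ * y * (g * x * g⁻¹)) * g = x⁻¹ * (g⁻¹ * y * g) * x := by
      group
    rw [← e]
    exact h4
  rw [hbot, Subgroup.mem_bot] at h5
  rw [Subgroup.mem_bot]
  have : y = g * (g⁻¹ * y * g) * g⁻¹ := by group
  rw [this, h5]; group

end Cfsg.Agent.Lib.Helper46.SylMeet
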