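import Mathlib
import Cfsg.Agent.Lib.Helper46.SylMeet.A4

set_option autoImplicit false

namespace Cfsg.Agent.Lib.Helper46.SylMeet
open scoped Pointwise

theorem meet_of_opp_equiv {G S : Type*} [Group G] [Finite G] [Group S] (N : Subgroup G) [N.Normal]
    (e : N ≃* S) (hidx : N.index = 2) (U₀ : Sylow 2 S)
    (hnorm : ∀ g : S, (∀ u ∈ U₀, g * u * g⁻¹ ∈ U₀) → g ∈ U₀) (w₀ : S)
    (hopp : ∀ g : S, (∀ u ∈ U₀, g * u * g⁻¹ ∈ U₀ → u = 1) → ∃ u ∈ U₀, ∃ u' ∈ U₀, g = u * w₀ * u')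
    (H : Sylow 2 G) (x : G) :
    (H : Subgroup G) ⊓ MulAut.conj x • (H : Subgroup G) ≠ ⊥ := by
  have : Fact (Nat.Prime 2) := ⟨Nat.prime_two⟩
  have : Finite S := Finite.of_equiv N e.toEquiv
  set U : Subgroup G := ((U₀ : Subgroup S).map e.symm.toMonoidHom).map N.subtype with hU
  have memU : ∀ y : G, y ∈ U ↔ ∃ s ∈ U₀, y = (e.symm s : G) := by
    intro y
    rw [hU]
    constructor
    · rintro ⟨_, ⟨s, hs, rfl⟩, rfl⟩
      exact ⟨s, hs, rfl⟩
    · rintro ⟨s, hs, rfl⟩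
      exact ⟨e.symm s, ⟨s, hs, rfl⟩, rfl⟩
  have memU' : ∀ n : N, (n : G) ∈ U ↔ e n ∈ U₀ := by
    intro n
    rw [memU]
    constructor
    · rintro ⟨s, hs, h⟩
      have : n = e.symm s := Subtype.ext h
      rw [this, e.apply_symm_apply]; exact hs
    · intro h
      exact ⟨e n, h, by rw [e.symm_apply_apply]⟩
  have hUN : U ≤ N := by
    intro y hy
    obtain ⟨s, -, rfl⟩ := (memU y).1 hy
    exact (e.symm s).2
  have cU : Nat.card U = 2 ^ (Nat.card N).factorization 2 := by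
    rw [hU, Subgroup.card_map_of_injective N.subtype_injective,
      Subgroup.card_map_of_injective e.symm.injective, Nat.card_congr e.toEquiv]
    exact Sylow.card_eq_multiplicity U₀
  refine meet_of_opp N hidx U hUN cU ?_ (e.symm w₀ : G) ?_ H x
  · intro g hg h
    have h1 : e ⟨g, hg⟩ ∈ U₀ := by
      apply hnorm
      intro u₀ hu₀
      have h2 := h (e.symm u₀ : G) ((memU _).2 ⟨u₀, hu₀, rfl⟩)
      have h3 : g * (e.symm u₀ : G) * g⁻¹ = ((⟨g, hg⟩ * e.symm u₀ * ⟨g, hg⟩⁻¹ : N) : G) := rfl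
      rw [h3, memU'] at h2
      simpa using h2
    exact (memU' ⟨g, hg⟩).2 h1
  · intro g hg h
    obtain ⟨u, hu, u', hu', h1⟩ := hopp (e ⟨g, hg⟩) (by
      intro u₀ hu₀ h2
      have h3 : g * (e.symm u₀ : G) * g⁻¹ = ((⟨g, hg⟩ * e.symm u₀ * ⟨g, hg⟩⁻¹ : N) : G) := rfl
      have h4 : g * (e.symm u₀ : G) * g⁻¹ ∈ U ⊓ MulAut.conj g • U := by
        refine Subgroup.mem_inf.2 ⟨?_, ?_⟩
        · rw [h3, memU']
          simpa using h2
        · rw [a3_mem_conj]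
          have e1 : g⁻¹ * (g * (e.symm u₀ : G) * g⁻¹) * g = (e.symm u₀ : G) := by group
          rw [e1]
          exact (memU _).2 ⟨u₀, hu₀, rfl⟩
      rw [h, Subgroup.mem_bot] at h4
      have h5 : (e.symm u₀ : G) = 1 := by
        have e1 : (e.symm u₀ : G) = g⁻¹ * (g * (e.symm u₀ : G) * g⁻¹) * g := by group
        rw [e1, h4]; group
      have h6 : e.symm u₀ = 1 := Subtype.ext h5
      simpa using h6)
    refine ⟨(e.symm u : G), (memU _).2 ⟨u, hu, rfl⟩, (e.symm u' : G), (memU _).2 ⟨u', hu', rfl⟩, ?_⟩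
    have h2 : (⟨g, hg⟩ : N) = e.symm u * e.symm w₀ * e.symm u' := by
      rw [← map_mul, ← map_mul, ← h1, e.symm_apply_apply]
    exact congrArg Subtype.val h2

end Cfsg.Agent.Lib.Helper46.SylMeet
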