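import Mathlib
import Cfsg.Agent.Lib.Helper46.GLnBruhat
import Cfsg.Agent.Lib.Helper89.UniSL

set_option autoImplicit false

namespace Cfsg.Agent.Lib.Helper46.SylMeet
open Matrix Cfsg
open scoped Pointwise
open Cfsg.Agent.Lib.Helper46 Cfsg.Agent.Lib.Helper89

variable {n : ℕ}

theorem b1_det (w : Equiv.Perm (Fin n)) : (pm (ZMod 2) w).det = 1 := by
  have h1 : (pm (ZMod 2) w).det * (pm (ZMod 2) w⁻¹).det = 1 := by
    rw [← Matrix.det_mul, ← pm_mul, mul_inv_cancel, pm_one, Matrix.det_one]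
  have h2 : ∀ x y : ZMod 2, x * y = 1 → x = 1 := by decide
  exact h2 _ _ h1

noncomputable def pmSL (w : Equiv.Perm (Fin n)) : Matrix.SpecialLinearGroup (Fin n) (ZMod 2) :=
  ⟨pm (ZMod 2) w, b1_det w⟩

theorem pmSL_coe (w : Equiv.Perm (Fin n)) :
    ((pmSL w : Matrix.SpecialLinearGroup (Fin n) (ZMod 2)) : Matrix (Fin n) (Fin n) (ZMod 2)) =
      pm (ZMod 2) w := rfl

theorem pmSL_mul (w w' : Equiv.Perm (Fin n)) : pmSL (w * w') = pmSL w * pmSL w' := by
  apply Subtype.ext
  change pm (ZMod 2) (w * w') = pm (ZMod 2) w * pm (ZMod 2) w'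
  exact pm_mul w w'

theorem pmSL_one : pmSL (1 : Equiv.Perm (Fin n)) = 1 := by
  apply Subtype.ext
  change pm (ZMod 2) (1 : Equiv.Perm (Fin n)) = 1
  exact pm_one

theorem pmSL_inv (w : Equiv.Perm (Fin n)) : (pmSL w)⁻¹ = pmSL w⁻¹ := by
  rw [inv_eq_iff_mul_eq_one, ← pmSL_mul, mul_inv_cancel, pmSL_one]

theorem pmSL_conj_transvection (w : Equiv.Perm (Fin n)) {i j : Fin n} (hij : i ≠ j) :
    pmSL w * Matrix.SpecialLinearGroup.transvection hij (1 : ZMod 2) * (pmSL w)⁻¹ =
      Matrix.SpecialLinearGroup.transvection (w.injective.ne hij) (1 : ZMod 2) := by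
  rw [mul_inv_eq_iff_eq_mul]
  apply Subtype.ext
  change pm (ZMod 2) w * (Matrix.SpecialLinearGroup.transvection hij (1 : ZMod 2)).1 =
    (Matrix.SpecialLinearGroup.transvection (w.injective.ne hij) (1 : ZMod 2)).1 * pm (ZMod 2) w
  have e1 : (Matrix.SpecialLinearGroup.transvection hij (1 : ZMod 2)).1
      = 1 + Matrix.single i j 1 := Matrix.SpecialLinearGroup.transvection_coe _ _
  have e2 : (Matrix.SpecialLinearGroup.transvection (w.injective.ne hij) (1 : ZMod 2)).1
      = 1 + Matrix.single (w i) (w j) 1 := Matrix.SpecialLinearGroup.transvection_coe _ _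
  rw [e1, e2, mul_add, add_mul, mul_one, one_mul]
  congr 1
  ext a b
  by_cases hb : b = j
  · subst hb
    rw [Matrix.mul_single_apply_same]
    by_cases ha : a = w i
    · subst ha
      rw [Matrix.single_mul_apply_same]
      simp [pm_apply]
    · rw [Matrix.single_mul_apply_of_ne _ _ _ _ _ ha]
      simp [pm_apply, ha]
  · rw [Matrix.mul_single_apply_of_ne _ _ _ _ _ hb]
    by_cases ha : a = w i
    · subst ha
      rw [Matrix.single_mul_apply_same]
      have : w j ≠ w b := fun h => hb (w.injective h).symm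
      simp [pm_apply, this]
    · rw [Matrix.single_mul_apply_of_ne _ _ _ _ _ ha]

end Cfsg.Agent.Lib.Helper46.SylMeet
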