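import Mathlib
import Cfsg.Agent.Lib.Helper46.SylMeet.B1

set_option autoImplicit false

namespace Cfsg.Agent.Lib.Helper46.SylMeet
open Matrix Cfsg
open scoped Pointwise
open Cfsg.Agent.Lib.Helper46 Cfsg.Agent.Lib.Helper89

variable {n : ℕ}

theorem b2_unitri (b : GL (Fin n) (ZMod 2)) (hb : b ∈ upperTriangularGL n (ZMod 2)) :
    ∃ u ∈ UT.U n (ZMod 2), (u : Matrix (Fin n) (Fin n) (ZMod 2)) = (b : Matrix (Fin n) (Fin n) (ZMod 2)) := by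
  have hb' : (b : Matrix (Fin n) (Fin n) (ZMod 2)).BlockTriangular id := hb
  have hdet : (b : Matrix (Fin n) (Fin n) (ZMod 2)).det
      = ∏ i, (b : Matrix (Fin n) (Fin n) (ZMod 2)) i i := Matrix.det_of_isUpperTriangular hb'
  have hunit : IsUnit (b : Matrix (Fin n) (Fin n) (ZMod 2)).det :=
    (Matrix.isUnit_iff_isUnit_det _).1 b.isUnit
  have hne : (b : Matrix (Fin n) (Fin n) (ZMod 2)).det ≠ 0 := hunit.ne_zero
  have h01 : ∀ x : ZMod 2, x ≠ 0 → x = 1 := by decide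
  have hdiag : ∀ i, (b : Matrix (Fin n) (Fin n) (ZMod 2)) i i = 1 := by
    intro i
    apply h01
    rw [hdet] at hne
    exact (Finset.prod_ne_zero_iff.1 hne) i (Finset.mem_univ i)
  refine ⟨⟨(b : Matrix (Fin n) (Fin n) (ZMod 2)), h01 _ hne⟩, ?_, rfl⟩
  refine (UT.mem_U_iff _).2 ?_
  intro a c hca
  change (b : Matrix (Fin n) (Fin n) (ZMod 2)) a c = _
  rcases hca.lt_or_eq with h | h
  · rw [Matrix.one_apply_ne (ne_of_gt h)]
    exact hb' h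
  · subst h
    rw [Matrix.one_apply_eq, hdiag]

theorem bruhat_two (g : Matrix.SpecialLinearGroup (Fin n) (ZMod 2)) :
    ∃ u₁ ∈ UT.U n (ZMod 2), ∃ u₂ ∈ UT.U n (ZMod 2), ∃ w : Equiv.Perm (Fin n),
      g = u₁ * pmSL w * u₂ := by
  obtain ⟨b₁, b₂, w, h1, h2, h⟩ := bruhat_exists (Matrix.SpecialLinearGroup.toGL g)
  obtain ⟨u₁, hu₁, e₁⟩ := b2_unitri b₁ h1
  obtain ⟨u₂, hu₂, e₂⟩ := b2_unitri b₂ h2
  refine ⟨u₁, hu₁, u₂, hu₂, w, ?_⟩
  apply Subtype.ext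
  have h3 := congrArg (fun x : GL (Fin n) (ZMod 2) => (x : Matrix (Fin n) (Fin n) (ZMod 2))) h
  change (g : Matrix (Fin n) (Fin n) (ZMod 2)) =
    (b₁ : Matrix (Fin n) (Fin n) (ZMod 2)) * pm (ZMod 2) w * (b₂ : Matrix (Fin n) (Fin n) (ZMod 2)) at h3
  change (g : Matrix (Fin n) (Fin n) (ZMod 2)) =
    (u₁ : Matrix (Fin n) (Fin n) (ZMod 2)) * pm (ZMod 2) w * (u₂ : Matrix (Fin n) (Fin n) (ZMod 2))
  rw [e₁, e₂, h3]

end Cfsg.Agent.Lib.Helper46.SylMeet
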