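import Mathlib
import Cfsg.Agent.Lib.Helper46.SylMeet.B2

set_option autoImplicit false

namespace Cfsg.Agent.Lib.Helper46.SylMeet
open Matrix Cfsg
open scoped Pointwise
open Cfsg.Agent.Lib.Helper46 Cfsg.Agent.Lib.Helper89

variable {n : ℕ}

theorem b3_eq_one (w : Equiv.Perm (Fin n)) (h : ∀ i j : Fin n, i < j → w i < w j) : w = 1 := by
  have h1 : StrictMono (w : Fin n → Fin n) := fun i j hij => h i j hij
  have h2 : (w : Fin n → Fin n) = id := by
    apply (StrictMono.range_inj h1 strictMono_id).1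
    rw [w.surjective.range_eq, Set.range_id]
  ext i
  rw [h2]; rfl

theorem b3_transvection_not_mem {a b : Fin n} (hab : a ≠ b) (h : b < a) :
    Matrix.SpecialLinearGroup.transvection hab (1 : ZMod 2) ∉ UT.U n (ZMod 2) := by
  intro hm
  have h1 := UT.U_apply_lt hm h
  rw [Matrix.SpecialLinearGroup.transvection_coe, Matrix.add_apply, Matrix.one_apply_ne hab,
    Matrix.single_apply_same] at h1
  revert h1
  decide

theorem normalizer_U (g : Matrix.SpecialLinearGroup (Fin n) (ZMod 2))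
    (h : ∀ u ∈ UT.U n (ZMod 2), g * u * g⁻¹ ∈ UT.U n (ZMod 2)) : g ∈ UT.U n (ZMod 2) := by
  obtain ⟨u₁, hu₁, u₂, hu₂, w, rfl⟩ := bruhat_two g
  have hw : ∀ u ∈ UT.U n (ZMod 2), pmSL w * u * (pmSL w)⁻¹ ∈ UT.U n (ZMod 2) := by
    intro u hu
    have h1 := h (u₂⁻¹ * u * u₂) (mul_mem (mul_mem (inv_mem hu₂) hu) hu₂)
    have h2 := mul_mem (mul_mem (inv_mem hu₁) h1) hu₁
    have e : u₁⁻¹ * (u₁ * pmSL w * u₂ * (u₂⁻¹ * u * u₂) * (u₁ * pmSL w * u₂)⁻¹) * u₁
        = pmSL w * u * (pmSL w)⁻¹ := by group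
    rw [e] at h2
    exact h2
  have hw1 : w = 1 := by
    apply b3_eq_one
    intro i j hij
    by_contra hlt
    have hne : w i ≠ w j := w.injective.ne (ne_of_lt hij)
    have hlt' : w j < w i := lt_of_le_of_ne (not_lt.1 hlt) hne.symm
    have h1 := hw _ (UT.transvection_mem_U hij (1 : ZMod 2))
    rw [pmSL_conj_transvection] at h1
    exact b3_transvection_not_mem _ hlt' h1
  rw [hw1, pmSL_one, mul_one]
  exact mul_mem hu₁ hu₂

end Cfsg.Agent.Lib.Helper46.SylMeet
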