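import Mathlib
import Cfsg.Agent.Lib.Helper46.SylMeet.B3

set_option autoImplicit false

namespace Cfsg.Agent.Lib.Helper46.SylMeet
open Matrix Cfsg
open scoped Pointwise
open Cfsg.Agent.Lib.Helper46 Cfsg.Agent.Lib.Helper89

variable {n : ℕ}

theorem b4_eq_rev (w : Equiv.Perm (Fin n)) (h : ∀ i j : Fin n, i < j → w j < w i) :
    w = Fin.revPerm := by
  have h1 : w * Fin.revPerm = 1 := by
    apply b3_eq_one
    intro i j hij
    rw [Equiv.Perm.mul_apply, Equiv.Perm.mul_apply, Fin.revPerm_apply, Fin.revPerm_apply]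
    exact h _ _ (Fin.rev_lt_rev.2 hij)
  have h2 : (Fin.revPerm : Equiv.Perm (Fin n)) * Fin.revPerm = 1 := by
    ext i
    simp
  calc w = w * (Fin.revPerm * Fin.revPerm) := by rw [h2, mul_one]
    _ = (w * Fin.revPerm) * Fin.revPerm := by rw [mul_assoc]
    _ = Fin.revPerm := by rw [h1, one_mul]

theorem b4_transvection_ne_one {a b : Fin n} (hab : a ≠ b) :
    Matrix.SpecialLinearGroup.transvection hab (1 : ZMod 2) ≠ 1 := by
  intro hm
  have h1 := congrArg (fun x : Matrix.SpecialLinearGroup (Fin n) (ZMod 2) => x.1 a b) hm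
  beta_reduce at h1
  rw [Matrix.SpecialLinearGroup.transvection_coe, Matrix.add_apply, Matrix.one_apply_ne hab,
    Matrix.single_apply_same] at h1
  change (0 : ZMod 2) + 1 = (1 : Matrix (Fin n) (Fin n) (ZMod 2)) a b at h1
  rw [Matrix.one_apply_ne hab] at h1
  revert h1
  decide

theorem opp_U (g : Matrix.SpecialLinearGroup (Fin n) (ZMod 2))
    (h : ∀ u ∈ UT.U n (ZMod 2), g * u * g⁻¹ ∈ UT.U n (ZMod 2) → u = 1) :
    ∃ u ∈ UT.U n (ZMod 2), ∃ u' ∈ UT.U n (ZMod 2), g = u * pmSL Fin.revPerm * u' := by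
  obtain ⟨u₁, hu₁, u₂, hu₂, w, rfl⟩ := bruhat_two g
  have hw : w = Fin.revPerm := by
    apply b4_eq_rev
    intro i j hij
    by_contra hlt
    have hne : w i ≠ w j := w.injective.ne (ne_of_lt hij)
    have hlt' : w i < w j := lt_of_le_of_ne (not_lt.1 hlt) hne
    have ht := UT.transvection_mem_U hij (1 : ZMod 2)
    have h1 := h (u₂⁻¹ * Matrix.SpecialLinearGroup.transvection (ne_of_lt hij) (1 : ZMod 2) * u₂)
      (mul_mem (mul_mem (inv_mem hu₂) ht) hu₂) (by
        have e : u₁ * pmSL w * u₂ *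
            (u₂⁻¹ * Matrix.SpecialLinearGroup.transvection (ne_of_lt hij) (1 : ZMod 2) * u₂) *
            (u₁ * pmSL w * u₂)⁻¹
            = u₁ * (pmSL w * Matrix.SpecialLinearGroup.transvection (ne_of_lt hij) (1 : ZMod 2) *
              (pmSL w)⁻¹) * u₁⁻¹ := by group
        rw [e, pmSL_conj_transvection]
        exact mul_mem (mul_mem hu₁ (UT.transvection_mem_U hlt' (1 : ZMod 2))) (inv_mem hu₁))
    apply b4_transvection_ne_one (ne_of_lt hij)
    have e2 : Matrix.SpecialLinearGroup.transvection (ne_of_lt hij) (1 : ZMod 2)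
        = u₂ * (u₂⁻¹ * Matrix.SpecialLinearGroup.transvection (ne_of_lt hij) (1 : ZMod 2) * u₂) *
          u₂⁻¹ := by group
    rw [e2, h1]; group
  exact ⟨u₁, hu₁, u₂, hu₂, by rw [hw]⟩

end Cfsg.Agent.Lib.Helper46.SylMeet
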